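import Cfsg.Agent.H5.OZ.Twelve
import Cfsg.Agent.H128.OZ.PlusEven

/-!
# S4842: the row `POmega⁺_12 (2)` (helper5)

`row_plus12_two` : the row from the congruence `Cong 2 17 4 S`.
-/

set_option autoImplicit false

namespace Cfsg.Agent.H5.OZ

open Cfsg Cfsg.Agent.H730.OZ Cfsg.Agent.LieClassical.OrthForms Cfsg.Agent.H182.Sign Cfsg.Agent.H182.Orth
open Cfsg.Agent.Nodes.RGDChev Cfsg.Agent.H530.OZ

universe u

theorem arith_twelve : ∀ m : ℕ, m < 60 → 0 < m → ∀ e : ℤ, (e = 1 ∨ e = -1) → (31 : ℤ) ∣ e * 2 ^ m - 1 →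
    (7 : ℤ) ∣ e * 2 ^ m - 1 → (17 : ℤ) ∣ e * 2 ^ m - 16 → False := by
  intro m hm hm0 e he h1 h2 h3
  rcases he with rfl | rfl
  · interval_cases m <;> revert h1 h2 h3 <;> norm_num
  · interval_cases m <;> revert h1 h2 h3 <;> norm_num

/-- **The row `POmega⁺_12 (2)`** -/
theorem row_plus12_two {S : Type u} [Group S] [Finite S] (hs : IsSimpleGroup S) {F : Type} [Field F] [Fintype F]
    (hF2 : Fintype.card F = 2) (e : S ≃* POmega F (quadFormPlus 6 F)) (h17 : Cong 2 17 4 S) :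
    Cfsg.Agent.H730.OZ.Row S := by
  have hcard : Fintype.card F = 2 ^ 1 := hF2
  have hp : Nat.Prime 2 := Nat.prime_two
  have hch : CharP F 2 := by
    obtain ⟨p, hp⟩ := CharP.exists F
    obtain ⟨n, hpp, hn⟩ := FiniteField.card F p
    rw [hF2] at hn
    have h1 : p ∣ 2 := hn ▸ dvd_pow_self p n.ne_zero
    rwa [(Nat.prime_dvd_prime_iff_eq hpp Nat.prime_two).1 h1] at hp
  have hpf : Fact (Nat.Prime 2) := ⟨hp⟩
  have hKS : Kaw 2 S := by
    refine Cfsg.Agent.H279.OZ.kaw_of_hasRGD hp ?_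
    exact (Cfsg.Agent.Nodes.WittInst.hasRGD_PO_plus (F := F) 3).of_equiv e.symm
  have hS0 := S0293.result hcard 6 (by norm_num)
  have hcS : Nat.card (POmega F (quadFormPlus 6 F)) = Nat.card S := (Nat.card_congr e.toEquiv).symm
  rw [hcS] at hS0
  obtain ⟨ho1, ho2⟩ := order_facts hp one_pos (by norm_num : 4 ≤ 6) (Nat.card_pos (α := S)).ne'
    (d := Nat.gcd 4 ((2 ^ 1) ^ 6 - 1)) (w := (2 ^ 1) ^ 6 - 1) (by norm_num) (by norm_num) (by norm_num) hS0
  have i : POmega F ⇑(plusForm 6 F) ≃* S := by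
    rw [coe_plusForm]
    exact e.symm
  have hR : Sg (plusForm 6 F) 6 1 := sg_plusForm 6
  have hc7 : Cong 2 7 0 S := (locAt_twelve hF2 i).cong (by norm_num)
  have hc31 : Cong 2 31 0 S := by
    refine IsoAt.cong hp (by norm_num) (by norm_num) (Cfsg.Agent.H128.OZ.isoP' (p := 2) (k := 5) (j := 1)
      (sg_hypForm (F := F)) (Or.inr rfl) (by norm_num) (by decide) ?_ i (by norm_num) ?_ ?_)
    · simpa using hR
    · rw [hF2]; norm_num
    · intro j hj hjn
      rw [hF2]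
      interval_cases j <;> norm_num
  refine Cfsg.Agent.H730.OZ.Row.of_none fun χ hχ => ?_
  refine none_of_cong hs hp ho1 (by norm_num) hKS ho2 ?_ hχ
  intro m ε hε hm hm' hcong
  refine arith_twelve m (by simpa using hm') hm ε hε ?_ ?_ ?_
  · simpa using hcong 31 0 hc31
  · simpa using hcong 7 0 hc7
  · simpa using hcong 17 4 h17

end Cfsg.Agent.H5.OZ

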