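import Cfsg.Agent.H5.OZ.LocTwo

/-!
# S4842: `LocAt p r G` (Sylow `r`-subgroups of order `r²`) and its transport (helper5)
-/

set_option autoImplicit false

namespace Cfsg.Agent.H5.OZ

open Cfsg Cfsg.Agent.H730.OZ Cfsg.Agent.H732.VZ

universe u v

/-- Sylow `r`-subgroups of order `r²`, no `p`-element in their centralizer, two unrelated elements of order `r`, each
commuting with a nontrivial `r'`-element. -/
def LocAt (p r : ℕ) (G : Type u) [Group G] : Prop :=
  ∃ (R : Subgroup G) (y₁ k₁ y₂ k₂ : G), Nat.card R = r ^ 2 ∧ ¬ r ^ 3 ∣ Nat.card G ∧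
    (∀ u : G, (∀ x ∈ R, x * u = u * x) → (∃ k : ℕ, orderOf u = p ^ k) → u = 1) ∧
    orderOf y₁ = r ∧ orderOf y₂ = r ∧ Commute y₁ k₁ ∧ Commute y₂ k₂ ∧ k₁ ≠ 1 ∧ k₂ ≠ 1 ∧
    ¬ r ∣ orderOf k₁ ∧ ¬ r ∣ orderOf k₂ ∧ ∀ n : ℕ, ¬ IsConj y₂ (y₁ ^ n)

theorem LocAt.of_equiv {p r : ℕ} {G : Type u} {H : Type v} [Group G] [Group H] (e : G ≃* H) (h : LocAt p r G) :
    LocAt p r H := by
  obtain ⟨R, y₁, k₁, y₂, k₂, h1, h2, h3, h4, h5, h6, h7, h8, h9, h10, h11, h12⟩ := h
  have ord : ∀ g : G, orderOf (e g) = orderOf g := fun g => MulEquiv.orderOf_eq e g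
  refine ⟨R.map e.toMonoidHom, e y₁, e k₁, e y₂, e k₂, ?_, ?_, ?_, ?_, ?_, h6.map e, h7.map e, ?_, ?_, ?_, ?_, ?_⟩
  · rw [← h1]
    exact (Nat.card_congr (Subgroup.equivMapOfInjective _ e.toMonoidHom e.injective).toEquiv).symm
  · rwa [← Nat.card_congr e.toEquiv]
  · intro u hu hk
    obtain ⟨u, rfl⟩ := e.surjective u
    rw [h3 u (fun x hx => ?_) (by obtain ⟨k, hk⟩ := hk; exact ⟨k, by rw [← ord, hk]⟩), map_one]
    have := hu (e x) ⟨x, hx, rfl⟩
    rw [← map_mul, ← map_mul] at this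
    exact e.injective this
  · rw [ord, h4]
  · rw [ord, h5]
  · rwa [Ne, EmbeddingLike.map_eq_one_iff]
  · rwa [Ne, EmbeddingLike.map_eq_one_iff]
  · rwa [ord]
  · rwa [ord]
  · intro n hn
    apply h12 n
    rw [← map_pow] at hn
    obtain ⟨c, hc⟩ := isConj_iff.1 hn
    obtain ⟨c, rfl⟩ := e.surjective c
    refine isConj_iff.2 ⟨c, e.injective ?_⟩
    rw [map_mul, map_mul, map_inv]
    exact hc

/-- the `r`-part of `y k` -/
theorem isPPart_mul {G : Type u} [Group G] {r : ℕ} {y k : G} (hy : orderOf y = r) (hc : Commute y k)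
    (hk : ¬ r ∣ orderOf k) : IsPPart r (y * k) y := ⟨k, rfl, hc, ⟨1, by rw [hy, pow_one]⟩, hk⟩

theorem LocAt.cong {p r : ℕ} {G : Type u} [Group G] [Finite G] (hr : r.Prime) (h : LocAt p r G) : Cong p r 0 G := by
  classical
  have hrf : Fact r.Prime := ⟨hr⟩
  obtain ⟨R₀, y₁, k₁, y₂, k₂, h1, h2, h3, h4, h5, h6, h7, h8, h9, h10, h11, h12⟩ := h
  have hfac : (Nat.card G).factorization r = 2 := by
    apply le_antisymm
    · by_contra hcon
      exact h2 ((hr.pow_dvd_iff_le_factorization Nat.card_pos.ne').2 (by omega))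
    · rw [← hr.pow_dvd_iff_le_factorization Nat.card_pos.ne', ← h1]
      exact Subgroup.card_subgroup_dvd_card R₀
  let S₀ : Sylow r G := Sylow.ofCard R₀ (by rw [h1, hfac])
  have hS₀ : (S₀ : Subgroup G) = R₀ := Sylow.coe_ofCard R₀ _
  refine cong_loc hr (fun R u hu hup => ?_) fun D hD hDR => ?_
  · -- centralizer of a Sylow subgroup
    obtain ⟨t, ht⟩ := MulAction.exists_smul_eq G S₀ R
    have h13 : t⁻¹ * u * t = 1 := by
      refine h3 _ (fun x hx => ?_) ?_
      · have hx' : t * x * t⁻¹ ∈ (R : Subgroup G) := by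
          rw [← ht, Sylow.smul_def]
          exact ⟨x, by rw [hS₀]; exact hx, rfl⟩
        have h14 := Subgroup.mem_centralizer_iff.1 hu _ hx'
        calc x * (t⁻¹ * u * t) = t⁻¹ * (t * x * t⁻¹ * u) * t := by group
          _ = t⁻¹ * (u * (t * x * t⁻¹)) * t := by rw [h14]
          _ = t⁻¹ * u * t * x := by group
      · obtain ⟨k, hk⟩ := hup
        refine ⟨k, ?_⟩
        rw [← hk]
        have := MulEquiv.orderOf_eq (MulAut.conj t⁻¹) u
        rwa [MulAut.conj_apply, inv_inv] at this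
    have : u = t * (t⁻¹ * u * t) * t⁻¹ := by group
    rw [this, h13]
    group
  · -- two classes
    have hcard : Nat.card D = 1 ∨ Nat.card D = r := by
      obtain ⟨j, hj⟩ := IsPGroup.iff_card.1 hD
      have hj2 : j ≤ 2 := by
        rw [← hfac, ← hr.pow_dvd_iff_le_factorization Nat.card_pos.ne', ← hj]
        exact Subgroup.card_subgroup_dvd_card D
      interval_cases j
      · left; rw [hj, pow_zero]
      · right; rw [hj, pow_one]
      · exfalso
        have h14 : Nat.card D = r ^ (Nat.card G).factorization r := by rw [hj, hfac]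
        exact hDR (Sylow.ofCard D h14) (Sylow.coe_ofCard D h14)
    have key : ∀ {y k : G}, orderOf y = r → Commute y k → k ≠ 1 → ¬ r ∣ orderOf k → (∀ t : G, t * y * t⁻¹ ∉ D) →
        ∃ g g' y y' : G, IsPPart r g y ∧ IsPPart r g' y' ∧ ¬ IsConj g g' ∧ (∀ t : G, t * y * t⁻¹ ∉ D) ∧
          (∀ t : G, t * y' * t⁻¹ ∉ D) := by
      intro y k hy hc hk1 hk hD'
      have hone : ¬ r ∣ orderOf (1 : G) := by
        rw [orderOf_one]
        intro h
        exact hr.one_lt.ne' (Nat.dvd_one.1 h)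
      refine ⟨y * 1, y * k, y, y, isPPart_mul hy (Commute.one_right y) hone, isPPart_mul hy hc hk, fun hconj => ?_,
        hD', hD'⟩
      have h13 := H604.OZ.orderOf_eq_of_conj hconj
      rw [mul_one, hy, hc.orderOf_mul_eq_mul_orderOf_of_coprime (by
        rw [hy]; exact (Nat.Prime.coprime_iff_not_dvd hr).2 hk), hy] at h13
      have h14 : orderOf k = 1 := by
        have := hr.pos
        exact Nat.eq_of_mul_eq_mul_left this (by rw [mul_one]; exact h13.symm)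
      exact hk1 (orderOf_eq_one_iff.1 h14)
    by_cases hc1 : ∀ t : G, t * y₁ * t⁻¹ ∉ D
    · exact key h4 h6 h8 h10 hc1
    by_cases hc2 : ∀ t : G, t * y₂ * t⁻¹ ∉ D
    · exact key h5 h7 h9 h11 hc2
    exfalso
    push Not at hc1 hc2
    obtain ⟨t₁, ht₁⟩ := hc1
    obtain ⟨t₂, ht₂⟩ := hc2
    have hord : ∀ t y : G, orderOf (t * y * t⁻¹) = orderOf y := fun t y => by
      rw [← MulAut.conj_apply, MulEquiv.orderOf_eq]
    have hDr : Nat.card D = r := by
      rcases hcard with h | h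
      · exfalso
        have := orderOf_dvd_natCard (⟨_, ht₁⟩ : D)
        rw [Subgroup.orderOf_mk, hord, h4, h] at this
        exact hr.one_lt.ne' (Nat.dvd_one.1 this)
      · exact h
    have hz : Subgroup.zpowers (t₁ * y₁ * t₁⁻¹) = D := by
      refine Subgroup.eq_of_le_of_card_ge ?_ ?_
      · rwa [Subgroup.zpowers_le]
      · rw [Nat.card_zpowers, hord, h4, hDr]
    rw [← hz] at ht₂
    obtain ⟨n, hn⟩ := (Submonoid.mem_powers_iff _ _).1 ((mem_powers_iff_mem_zpowers).2 ht₂)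
    apply h12 n
    refine isConj_iff.2 ⟨t₁⁻¹ * t₂, ?_⟩
    rw [conj_pow] at hn
    calc t₁⁻¹ * t₂ * y₂ * (t₁⁻¹ * t₂)⁻¹ = t₁⁻¹ * (t₂ * y₂ * t₂⁻¹) * t₁ := by group
      _ = t₁⁻¹ * (t₁ * y₁ ^ n * t₁⁻¹) * t₁ := by rw [hn]
      _ = y₁ ^ n := by group

end Cfsg.Agent.H5.OZ
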