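import Cfsg.Agent.H730.OZ.Top
import Cfsg.Agent.H732.VZ.Bridge
import Cfsg.Agent.S0959
import Cfsg.Agent.H604.OZ.Basic
import Cfsg.Agent.S0924
import Cfsg.Agent.S0929
import Cfsg.Agent.S0931
import Cfsg.Agent.Blocks.ExistsModular
import Cfsg.Agent.Blocks.SecondMain

/-!
# S4842: congruences from the defect groups (helper5)

`cong_loc` : if no `p`-element `≠ 1` centralizes a Sylow `r`-subgroup, and every `r`-subgroup which is not Sylow misses
the `r`-parts of two classes, then `Cong p r 0 G`.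
-/

set_option autoImplicit false

namespace Cfsg.Agent.H5.OZ

open Cfsg Cfsg.Agent.H730.OZ Cfsg.Agent.H732.VZ Cfsg.Agent.Blocks

universe u

variable {G : Type u} [Group G] [Finite G]

/-- the eigenvalue of the sum of the `p`-elements is `1` modulo `r` if no `p`-element centralizes a defect group -/
theorem dvd_of_defect {p r : ℕ} [Fact r.Prime] {M : Ideal AlgInt} (hM : IsPModular r M) (χ : IrrCharacter G)
    {D : Subgroup G} (hD : IsDefectGroup r M (blockOf M (χ : G → ℂ)) D)
    (hC : ∀ u, u ∈ Subgroup.centralizer (D : Set G) → u ∈ pSet p G → u = 1) {m : ℕ} {e : ℤ}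
    (hs : ∑ᶠ u ∈ pSet p G, (χ : G → ℂ) u = (e : ℂ) * (p : ℂ) ^ m * (χ : G → ℂ) 1) :
    (r : ℤ) ∣ e * (p : ℤ) ^ m - 1 := by
  classical
  have := Fintype.ofFinite G
  have := Fintype.ofFinite (ConjClasses G)
  have hMp : M.IsPrime := Local.isPrime_of_isPModular hM
  have h1 : (χ : G → ℂ) 1 ≠ 0 := Basic.irr_one_ne_zero χ.2
  have hord : ∀ {g h : G}, IsConj g h → (g ∈ pSet p G ↔ h ∈ pSet p G) := by
    intro g h hgh
    have : orderOf g = orderOf h := H604.OZ.orderOf_eq_of_conj hgh
    change (∃ k, _) ↔ (∃ k, _)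
    rw [this]
  have hloc : ∀ u ∈ pSet p G, u ≠ 1 → MemLocalIdeal M (centralChar (χ : G → ℂ) u) := by
    intro u hu hu1
    by_contra h
    obtain ⟨x, hx, hxC, -⟩ := S0929.result r M hM (blockOf M (χ : G → ℂ)) ⟨χ, rfl⟩ D hD u
      ⟨χ, Basic.mem_blockOf_self χ, h⟩
    have hx1 := hC x hxC ((hord hx).1 hu)
    rw [hx1] at hx
    exact hu1 (isConj_one_right.1 hx.symm)
  let T : ConjClasses G → ℂ := fun c =>
    if Quotient.out c ∈ pSet p G then centralChar (χ : G → ℂ) (Quotient.out c) else 0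
  have hsum : ∑ᶠ u ∈ pSet p G, (χ : G → ℂ) u = (∑ c, T c) * (χ : G → ℂ) 1 := by
    have e1 : ∑ᶠ u ∈ pSet p G, (χ : G → ℂ) u = ∑ g : G, if g ∈ pSet p G then (χ : G → ℂ) g else 0 := by
      rw [← finsum_eq_sum_of_fintype]
      refine finsum_congr fun g => ?_
      by_cases hg : g ∈ pSet p G
      · simp [hg]
      · simp [hg]
    rw [e1, SecondMain.sum_eq_sum_classes, Finset.sum_mul]
    refine Finset.sum_congr rfl fun c _ => ?_
    have e2 : ∀ g ∈ Finset.univ.filter (fun g : G => IsConj (Quotient.out c) g),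
        (if g ∈ pSet p G then (χ : G → ℂ) g else 0) =
          if Quotient.out c ∈ pSet p G then (χ : G → ℂ) (Quotient.out c) else 0 := by
      intro g hg
      have hg' := (Finset.mem_filter.1 hg).2
      obtain ⟨y, hy⟩ := isConj_iff.1 hg'
      have e3 : (χ : G → ℂ) g = (χ : G → ℂ) (Quotient.out c) := by
        have := Basic.irr_conj χ.2 (Quotient.out c) y
        rwa [hy] at this
      rw [e3]
      simp only [hord hg']
    rw [Finset.sum_congr rfl e2, Finset.sum_const, nsmul_eq_mul]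
    have h2 : (Finset.univ.filter (fun g : G => IsConj (Quotient.out c) g)).card =
        (Subgroup.centralizer ({Quotient.out c} : Set G)).index := by
      rw [Basic.index_centralizer_eq_ncard, Set.ncard_eq_toFinset_card']
      congr 1
      ext g
      simp
    rw [h2]
    simp only [T]
    split_ifs
    · rw [Basic.centralChar_def]
      field_simp
    · rw [mul_zero, zero_mul]
  rw [hs] at hsum
  have h3 := mul_right_cancel₀ h1 hsum
  have h4 : Quotient.out (ConjClasses.mk (1 : G)) = 1 := by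
    have : ConjClasses.mk (Quotient.out (ConjClasses.mk (1 : G))) = ConjClasses.mk 1 := Quotient.out_eq _
    rw [ConjClasses.mk_eq_mk_iff_isConj] at this
    exact isConj_one_right.1 this.symm
  have h5 : ∑ c, T c = 1 + ∑ c ∈ Finset.univ.erase (ConjClasses.mk (1 : G)), T c := by
    rw [← Finset.add_sum_erase _ _ (Finset.mem_univ (ConjClasses.mk (1 : G)))]
    congr 1
    simp only [T]
    rw [h4, if_pos ⟨0, by rw [orderOf_one, pow_zero]⟩, Basic.centralChar_one h1]
  have h6 : MemLocalIdeal M (∑ c ∈ Finset.univ.erase (ConjClasses.mk (1 : G)), T c) := by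
    refine Local.memLocalIdeal_sum fun c hc => ?_
    simp only [T]
    split_ifs with h
    · refine hloc _ h fun h7 => ?_
      rw [Finset.mem_erase] at hc
      apply hc.1
      have : ConjClasses.mk (Quotient.out c) = c := Quotient.out_eq _
      rw [← this, h7]
    · exact Local.memLocalIdeal_zero
  have h7 : (((e * (p : ℤ) ^ m - 1 : ℤ)) : ℂ) = ∑ c ∈ Finset.univ.erase (ConjClasses.mk (1 : G)), T c := by
    push_cast
    rw [h3, h5]
    ring
  rw [← h7] at h6
  exact (Local.memLocalIdeal_intCast_iff hM _).1 h6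

/-- **congruences from the defect groups** -/
theorem cong_loc {p r : ℕ} (hr : r.Prime)
    (hC : ∀ (R : Sylow r G) (u : G), u ∈ Subgroup.centralizer ((R : Subgroup G) : Set G) → u ∈ pSet p G → u = 1)
    (hD : ∀ D : Subgroup G, IsPGroup r D → (∀ R : Sylow r G, (R : Subgroup G) ≠ D) →
      ∃ g g' y y' : G, IsPPart r g y ∧ IsPPart r g' y' ∧ ¬ IsConj g g' ∧ (∀ t : G, t * y * t⁻¹ ∉ D) ∧
        (∀ t : G, t * y' * t⁻¹ ∉ D)) : Cong p r 0 G := by
  intro χ hχ hO m e _ hs
  have hrf : Fact r.Prime := ⟨hr⟩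
  obtain ⟨x, hx⟩ := (oneZero_iff hχ).1 hO
  obtain ⟨M, hM⟩ := ExistsModular.exists_isPModular hr
  have hMp : M.IsPrime := Local.isPrime_of_isPModular hM
  obtain ⟨D, hDd, hDp⟩ := S0931.exists_defectGroup r M hM (blockOf M χ) ⟨⟨χ, hχ⟩, rfl⟩
  rw [pow_zero]
  by_cases hS : ∀ R : Sylow r G, (R : Subgroup G) ≠ D
  · exfalso
    obtain ⟨g, g', y, y', hy, hy', hne, h1, h2⟩ := hD D hDp hS
    have key : ∀ {g y : G}, IsPPart r g y → (∀ t : G, t * y * t⁻¹ ∉ D) → χ g = 0 := by
      intro g y hy h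
      refine S0924.result r M hM ⟨χ, hχ⟩ g y hy fun D' hD' hyD' => ?_
      obtain ⟨c, hc, P, rfl⟩ := hD'
      obtain ⟨t, ht⟩ := (S0959.result r M hM (blockOf M χ) ⟨⟨χ, hχ⟩, rfl⟩ D hDd
        ((P : Subgroup (Subgroup.centralizer ({c} : Set G))).map (Subgroup.centralizer ({c} : Set G)).subtype)
        (P.isPGroup'.map _)).1 ⟨c, hc.1, hc.2.1, c, IsConj.refl c, by
          rw [Subgroup.mem_centralizer_iff]
          rintro _ ⟨z, -, rfl⟩
          exact (Subgroup.mem_centralizer_singleton_iff.1 z.2)⟩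
      exact h t (ht ⟨y, hyD', rfl⟩)
    exact hne ((hx.uniq g (key hy h1)).symm.trans (hx.uniq g' (key hy' h2)))
  · push Not at hS
    obtain ⟨R, hR⟩ := hS
    refine dvd_of_defect hM ⟨χ, hχ⟩ hDd (fun u hu hup => hC R u ?_ hup) hs
    rw [hR]
    exact hu

end Cfsg.Agent.H5.OZ
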