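import Cfsg.Agent.H530.OZ.Geo
import Cfsg.Agent.H530.OZ.Row
import Cfsg.Agent.H5.OZ.LocAt
import Cfsg.Agent.S0293

/-!
# S4842: `POmega⁺_12 (2)`, the prime 7 (helper5)
-/

set_option autoImplicit false

namespace Cfsg.Agent.H5.OZ

open Module QuadraticMap Cfsg Cfsg.Agent.H730.OZ
open Cfsg.Agent.LieClassical.OrthCore Cfsg.Agent.LieClassical.OrthTrans Cfsg.Agent.H890.SpParity
open Cfsg.Agent.LieClassical.OrthFinite Cfsg.Agent.LieClassical.OrthForms
open Cfsg.Agent.H182.Sign Cfsg.Agent.H182.Orth Cfsg.Agent.H530.CJ Cfsg.Agent.H93.CJ Cfsg.Agent.H93.PReg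
open Cfsg.Agent.H530.OZ

universe u

/-- odd order elements -/
theorem odd_mem {F : Type} [Field F] [Finite F] {V : Type} [AddCommGroup V] [Module F V] [Finite V]
    {Q : QuadraticForm F V} (hG : Good Q) {t : V ≃ₗ[F] V} (ht : t ∈ O Q) {r : ℕ} (hr : Odd r)
    (h : t ^ r = 1) : t ∈ E Q := by
  obtain ⟨m, hm⟩ := hr
  have h1 : t = t ^ (m + 1) * t ^ (m + 1) := by
    rw [← pow_add, show m + 1 + (m + 1) = r + 1 by omega, pow_succ, h, one_mul]
  rw [h1]
  exact Cfsg.Agent.ETable.Orth.sq_mem_E hG ((O Q).pow_mem ht _)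

section model

variable (F : Type) [Field F] {K : Type} [Field K] [Algebra F K]

theorem dw_mul (s t : Kˣ) : (dw (s * t) : (K × K) ≃ₗ[F] (K × K)) = dw s * dw t := by
  refine LinearEquiv.ext fun p => Prod.ext ?_ ?_
  · show ((s * t : Kˣ) : K) * p.1 = s * (t * p.1)
    rw [Units.val_mul, mul_assoc]
  · show (((s * t)⁻¹ : Kˣ) : K) * p.2 = ((s⁻¹ : Kˣ) : K) * (((t⁻¹ : Kˣ) : K) * p.2)
    rw [mul_inv, Units.val_mul, mul_assoc]

theorem dw_one : (dw (1 : Kˣ) : (K × K) ≃ₗ[F] (K × K)) = 1 := by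
  refine LinearEquiv.ext fun p => ?_
  rw [dw_apply, inv_one, Units.val_one, one_mul, one_mul]
  rfl

/-- the torus -/
noncomputable def ph : Kˣ × Kˣ →* (((K × K) × (K × K)) ≃ₗ[F] ((K × K) × (K × K))) where
  toFun x := (dw x.1).prodCongr (dw x.2)
  map_one' := by
    refine LinearEquiv.ext fun p => Prod.ext ?_ ?_
    · exact LinearEquiv.congr_fun (dw_one F) p.1
    · exact LinearEquiv.congr_fun (dw_one F) p.2
  map_mul' x y := by
    refine LinearEquiv.ext fun p => Prod.ext ?_ ?_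
    · exact LinearEquiv.congr_fun (dw_mul F x.1 y.1) p.1
    · exact LinearEquiv.congr_fun (dw_mul F x.2 y.2) p.2

theorem ph_apply (x : Kˣ × Kˣ) (p : (K × K) × (K × K)) : ph F x p = (dw (F := F) x.1 p.1, dw (F := F) x.2 p.2) := rfl

theorem ph_mem_O [Finite F] [Finite K] (x : Kˣ × Kˣ) : ph F x ∈ O (prodForm (tq F K) (tq F K)) := by
  intro p
  rw [ph_apply, prodForm_apply, prodForm_apply, dw_mem_O, dw_mem_O]

theorem ph_inj : Function.Injective (ph F : Kˣ × Kˣ →* _) := by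
  rw [injective_iff_map_eq_one]
  intro x hx
  have h1 := LinearEquiv.congr_fun hx ((1, 0), (1, 0))
  have e1 : (x.1 : K) * 1 = 1 := congrArg (fun v => v.1.1) h1
  have e2 : (x.2 : K) * 1 = 1 := congrArg (fun v => v.2.1) h1
  rw [mul_one] at e1 e2
  exact Prod.ext (Units.ext e1) (Units.ext e2)

/-- an element of order 3 commuting with the `ph (s, s)` -/
def kk [CharP K 2] : ((K × K) × (K × K)) ≃ₗ[F] ((K × K) × (K × K)) where
  toFun v := ((v.2.1, v.1.2 + v.2.2), (v.1.1 + v.2.1, v.1.2))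
  map_add' v w := by
    refine Prod.ext (Prod.ext rfl ?_) (Prod.ext ?_ rfl)
    · show v.1.2 + w.1.2 + (v.2.2 + w.2.2) = v.1.2 + v.2.2 + (w.1.2 + w.2.2)
      ring
    · show v.1.1 + w.1.1 + (v.2.1 + w.2.1) = v.1.1 + v.2.1 + (w.1.1 + w.2.1)
      ring
  map_smul' c v := by
    refine Prod.ext (Prod.ext rfl ?_) (Prod.ext ?_ rfl)
    · exact (smul_add c v.1.2 v.2.2).symm
    · exact (smul_add c v.1.1 v.2.1).symm
  invFun v := ((v.1.1 + v.2.1, v.2.2), (v.1.1, v.1.2 + v.2.2))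
  left_inv v := by
    have h2 : (2 : K) = 0 := CharP.cast_eq_zero K 2
    refine Prod.ext (Prod.ext ?_ rfl) (Prod.ext rfl ?_)
    · show v.2.1 + (v.1.1 + v.2.1) = v.1.1
      linear_combination v.2.1 * h2
    · show v.1.2 + v.2.2 + v.1.2 = v.2.2
      linear_combination v.1.2 * h2
  right_inv v := by
    have h2 : (2 : K) = 0 := CharP.cast_eq_zero K 2
    refine Prod.ext (Prod.ext rfl ?_) (Prod.ext ?_ rfl)
    · show v.2.2 + (v.1.2 + v.2.2) = v.1.2
      linear_combination v.2.2 * h2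
    · show v.1.1 + v.2.1 + v.1.1 = v.2.1
      linear_combination v.1.1 * h2

theorem kk_apply [CharP K 2] (v : (K × K) × (K × K)) :
    kk F v = ((v.2.1, v.1.2 + v.2.2), (v.1.1 + v.2.1, v.1.2)) := rfl

theorem kk_mem_O [Finite F] [Finite K] [CharP K 2] : kk F ∈ O (prodForm (tq F K) (tq F K)) := by
  intro v
  have h2 : (2 : K) = 0 := CharP.cast_eq_zero K 2
  rw [kk_apply, prodForm_apply, prodForm_apply, tq_apply, tq_apply, tq_apply, tq_apply, ← map_add, ← map_add]
  congr 1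
  show v.2.1 * (v.1.2 + v.2.2) + (v.1.1 + v.2.1) * v.1.2 = v.1.1 * v.1.2 + v.2.1 * v.2.2
  linear_combination v.2.1 * v.1.2 * h2

theorem kk_pow [CharP K 2] : (kk F : ((K × K) × (K × K)) ≃ₗ[F] _) ^ 3 = 1 := by
  refine LinearEquiv.ext fun v => ?_
  have h2 : (2 : K) = 0 := CharP.cast_eq_zero K 2
  rw [pow_succ, pow_two, LinearEquiv.mul_apply, LinearEquiv.mul_apply]
  simp only [kk_apply]
  refine Prod.ext (Prod.ext ?_ ?_) (Prod.ext ?_ ?_)
  · show _ = v.1.1
    linear_combination v.2.1 * h2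
  · show _ = v.1.2
    linear_combination (v.1.2 + v.2.2) * h2
  · show _ = v.2.1
    linear_combination (v.1.1 + v.2.1) * h2
  · show _ = v.2.2
    linear_combination v.1.2 * h2

theorem kk_ne [CharP K 2] : (kk F : ((K × K) × (K × K)) ≃ₗ[F] _) ≠ 1 := by
  intro h
  have h1 := LinearEquiv.congr_fun h ((1, 0), (0, 0))
  rw [kk_apply] at h1
  have h2 : (0 : K) = 1 := congrArg (fun v => v.1.1) h1
  exact zero_ne_one h2

theorem kk_comm [CharP K 2] (s : Kˣ) : Commute (ph F (s, s)) (kk F) := by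
  refine LinearEquiv.ext fun v => ?_
  rw [LinearEquiv.mul_apply, LinearEquiv.mul_apply, kk_apply, ph_apply, ph_apply, kk_apply, dw_apply, dw_apply,
    dw_apply, dw_apply]
  refine Prod.ext (Prod.ext rfl ?_) (Prod.ext ?_ rfl)
  · show ((s⁻¹ : Kˣ) : K) * (v.1.2 + v.2.2) = _
    ring
  · show (s : K) * (v.1.1 + v.2.1) = _
    ring

/-- an automorphism of the field on the second summand -/
noncomputable def fr (σ : K ≃ₐ[F] K) : ((K × K) × (K × K)) ≃ₗ[F] ((K × K) × (K × K)) :=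
  (LinearEquiv.refl F (K × K)).prodCongr (σ.toLinearEquiv.prodCongr σ.toLinearEquiv)

theorem fr_apply (σ : K ≃ₐ[F] K) (v : (K × K) × (K × K)) : fr F σ v = (v.1, (σ v.2.1, σ v.2.2)) := rfl

theorem fr_mem_O [Finite F] [Finite K] (σ : K ≃ₐ[F] K) : fr F σ ∈ O (prodForm (tq F K) (tq F K)) := by
  intro v
  rw [fr_apply, prodForm_apply, prodForm_apply]
  congr 1
  rw [tq_apply, tq_apply]
  show Algebra.trace F K (σ v.2.1 * σ v.2.2) = _
  rw [← map_mul]
  exact Algebra.trace_eq_of_algEquiv σ _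

theorem fr_pow (σ : K ≃ₐ[F] K) (n : ℕ) : fr F σ ^ n = fr F (σ ^ n) := by
  induction n with
  | zero => rw [pow_zero, pow_zero]; rfl
  | succ n ih => rw [pow_succ, pow_succ, ih]; rfl

theorem fr_one : fr F (1 : K ≃ₐ[F] K) = 1 := rfl

theorem fr_ne {σ : K ≃ₐ[F] K} (hσ : σ ≠ 1) : fr F σ ≠ 1 := by
  intro h
  apply hσ
  refine AlgEquiv.ext fun a => ?_
  have h1 := LinearEquiv.congr_fun h ((0, 0), (a, 0))
  rw [fr_apply] at h1
  exact congrArg (fun v => v.2.1) h1

theorem fr_comm (σ : K ≃ₐ[F] K) (s : Kˣ) : Commute (ph F (s, 1)) (fr F σ) := by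
  refine LinearEquiv.ext fun v => ?_
  rw [LinearEquiv.mul_apply, LinearEquiv.mul_apply, fr_apply, ph_apply, ph_apply, fr_apply, dw_one]
  rfl

end model

theorem TorU.pow_one' {F : Type} [Field F] [Finite F] {U L : Type} [AddCommGroup U] [Module F U] [Finite U] [Field L]
    [Algebra F L] {Q : QuadraticForm F U} {r : ℕ} {z : U ≃ₗ[F] U} {j : L →ₗ[F] U} {lam : L} (hT : TorU Q r z j lam)
    {N : ℕ} (hN : ∀ a : L, a ≠ 0 → a ^ N = 1) {t : U ≃ₗ[F] U} (ht : t ∈ O Q) (hc : Commute t z) : t ^ N = 1 := by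
  obtain ⟨a, ha, -, -⟩ := hT.cen t ht hc
  have ha0 : a ≠ 0 := by
    rintro rfl
    have h4 := ha 1
    rw [zero_mul, map_zero, LinearEquiv.map_eq_zero_iff] at h4
    exact one_ne_zero (hT.inj (h4.trans (map_zero j).symm))
  have hpow : ∀ (k : ℕ) (l : L), (t ^ k) (j l) = j (a ^ k * l) := by
    intro k
    induction k with
    | zero => intro l; rw [pow_zero, pow_zero, one_mul]; rfl
    | succ k ih => intro l; rw [pow_succ, LinearEquiv.mul_apply, ha, ih, pow_succ, mul_assoc]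
  obtain ⟨a', ha', h1, -⟩ := hT.cen (t ^ N) ((O Q).pow_mem ht N) (hc.pow_left N)
  apply h1
  have h2 := (hpow N 1).symm.trans (ha' 1)
  have h3 := hT.inj h2
  rw [hN a ha0, mul_one, mul_one] at h3
  exact h3.symm

/-- the centralizer of the torus -/
theorem cen_torus {F : Type} [Field F] [Finite F] {K : Type} [Field K] [Finite K] [Algebra F K] {y : Kˣ} {r : ℕ} (hr : 1 < r)
    {j : K →ₗ[F] K × K} {lam : K} (hT : TorU (tq F K) r (dw y : (K × K) ≃ₗ[F] (K × K)) j lam)
    {N : ℕ} (hN : ∀ a : K, a ≠ 0 → a ^ N = 1) {u : ((K × K) × (K × K)) ≃ₗ[F] ((K × K) × (K × K))}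
    (hu : u ∈ O (prodForm (tq F K) (tq F K))) (h1 : Commute u (ph F (y, 1))) (h2 : Commute u (ph F (1, y))) :
    u ^ N = 1 := by
  have c1 : Commute u ((dw y : (K × K) ≃ₗ[F] (K × K)).prodCongr (LinearEquiv.refl F (K × K))) := by
    have h2 : ph F (y, 1) = (dw y : (K × K) ≃ₗ[F] (K × K)).prodCongr (LinearEquiv.refl F (K × K)) :=
      LinearEquiv.ext fun v => Prod.ext rfl (LinearEquiv.congr_fun (dw_one F) v.2)
    rw [← h2]
    exact h1
  obtain ⟨t, s, hts⟩ := block (z := (dw y : (K × K) ≃ₗ[F] (K × K))) (fun v hv => hT.fix_eq hr v hv) c1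
  subst hts
  have hO : ∀ a c, tq F K (t a) + tq F K (s c) = tq F K a + tq F K c := by
    intro a c
    have := hu (a, c)
    rw [prodForm_apply, prodForm_apply] at this
    exact this
  have htO : t ∈ O (tq F K) := by
    intro a
    have := hO a 0
    rw [map_zero, QuadraticMap.map_zero, add_zero, add_zero] at this
    exact this
  have hsO : s ∈ O (tq F K) := by
    intro a
    have := hO 0 a
    rw [map_zero, QuadraticMap.map_zero, zero_add, zero_add] at this
    exact this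
  have htc : Commute t (dw y : (K × K) ≃ₗ[F] (K × K)) := by
    refine LinearEquiv.ext fun a => ?_
    exact congrArg Prod.fst (LinearEquiv.congr_fun c1.eq (a, 0))
  have hsc : Commute s (dw y : (K × K) ≃ₗ[F] (K × K)) := by
    refine LinearEquiv.ext fun a => ?_
    exact congrArg Prod.snd (LinearEquiv.congr_fun h2.eq (0, a))
  have ht7 := TorU.pow_one' hT hN htO htc
  have hs7 := TorU.pow_one' hT hN hsO hsc
  have hpc : ∀ n : ℕ, (t.prodCongr s) ^ n = (t ^ n).prodCongr (s ^ n) := by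
    intro n
    induction n with
    | zero => rfl
    | succ n ih => rw [pow_succ, ih, pow_succ, pow_succ]; rfl
  rw [hpc, ht7, hs7]
  rfl

/-- `ph (y, y)` has no fixed vector, the `ph (y, 1) ^ n` do -/
theorem not_conj_model {F : Type} [Field F] {K : Type} [Field K] [Algebra F K] {y : Kˣ}
    (hfix : ∀ v : K × K, (dw y : (K × K) ≃ₗ[F] (K × K)) v = v → v = 0) {n : ℕ}
    {c : ((K × K) × (K × K)) ≃ₗ[F] ((K × K) × (K × K))} (h : c * ph F (y, y) = ph F ((y, 1) ^ n) * c) : False := by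
  obtain ⟨v, hv⟩ := c.surjective ((0, 0), (1, 0))
  have h3 := LinearEquiv.congr_fun h v
  rw [LinearEquiv.mul_apply, LinearEquiv.mul_apply, hv] at h3
  have h5 : ph F ((y, 1) ^ n) ((0, 0), (1, 0)) = (((0, 0), (1, 0)) : (K × K) × (K × K)) := by
    rw [ph_apply]
    have e1 : (((y, 1) : Kˣ × Kˣ) ^ n).2 = 1 := by rw [Prod.pow_snd, one_pow]
    rw [e1, dw_one]
    refine Prod.ext ?_ rfl
    exact map_zero (dw ((y, 1) ^ n).1 : (K × K) ≃ₗ[F] (K × K))
  rw [h5, ← hv] at h3
  have h6 := c.injective h3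
  rw [ph_apply] at h6
  have h7' : v = 0 := Prod.ext (hfix _ (congrArg Prod.fst h6)) (hfix _ (congrArg Prod.snd h6))
  rw [h7', map_zero] at hv
  exact zero_ne_one (congrArg (fun w : (K × K) × (K × K) => w.2.1) hv)

/-- **the prime 7 in `POmega⁺_12 (2)`** -/
theorem locAt_twelve {F : Type} [Field F] [Fintype F] (hF2 : Fintype.card F = 2) {S : Type u} [Group S] [Finite S]
    (i : POmega F ⇑(plusForm 6 F) ≃* S) : LocAt 2 7 S := by
  classical
  obtain ⟨K, _, _, b, hKf, y, hK, hy⟩ := Singer.exists_ext F 3 (by omega)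
  have hrk : Module.finrank F K = 3 := by rw [Module.finrank_eq_card_basis b, Fintype.card_fin]
  have hQ := sg_tq F K hrk
  obtain ⟨hG, π, hπ, hker⟩ := exists_pi' (hQ.prod hQ) (by omega) (by
    have := sg_plusForm (F := F) 6
    rwa [mul_one]) i
  have hcF : Nat.card F = 2 := by rw [Nat.card_eq_fintype_card, hF2]
  have hy7 : orderOf y = 7 := by
    rw [hy, hF2]
    norm_num
  have hch : CharP F 2 := by
    obtain ⟨p, hp⟩ := CharP.exists F
    obtain ⟨n, hpp, hn⟩ := FiniteField.card F p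
    rw [hF2] at hn
    have h1 : p ∣ 2 := hn ▸ dvd_pow_self p n.ne_zero
    rwa [(Nat.prime_dvd_prime_iff_eq hpp Nat.prime_two).1 h1] at hp
  have hchK : CharP K 2 := charP_of_injective_algebraMap (algebraMap F K).injective 2
  have hinj : Function.Injective π := by
    rw [injective_iff_map_eq_one]
    intro k hk
    obtain ⟨a, ha⟩ := (hker k).1 hk
    have ha2 : a ^ 2 = a := by
      have := FiniteField.pow_card a
      rwa [hF2] at this
    have ha1 : a = 1 := by
      have h1 : a * (a - 1) = 0 := by linear_combination ha2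
      rcases mul_eq_zero.1 h1 with h | h
      · exfalso
        have h2 := ha ((1, 0), (0, 0))
        rw [h, zero_smul, LinearEquiv.map_eq_zero_iff] at h2
        exact one_ne_zero (congrArg (fun v : (K × K) × (K × K) => v.1.1) h2)
      · exact sub_eq_zero.1 h
    apply Subtype.ext
    refine LinearEquiv.ext fun v => ?_
    rw [ha, ha1, one_smul]
    rfl
  let ψ : E (prodForm (tq F K) (tq F K)) ≃* S := MulEquiv.ofBijective π ⟨hinj, hπ⟩
  refine LocAt.of_equiv ψ ?_
  have h7 : Nat.Prime 7 := by norm_num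
  have hKx : Nat.card Kˣ = 7 := by
    rw [Nat.card_units, hK, hF2]
    norm_num
  have hu7 : ∀ u : Kˣ, u ^ 7 = 1 := fun u => by rw [← hKx, pow_card_eq_one']
  have hp7 : ∀ x : Kˣ × Kˣ, ph F x ^ 7 = 1 := fun x => by
    rw [← map_pow]
    have : x ^ 7 = 1 := Prod.ext (hu7 _) (hu7 _)
    rw [this, map_one]
  have hy1 : y ≠ 1 := by
    rintro rfl
    rw [orderOf_one] at hy7
    omega
  have hT := torU_plus (F := F) (r := 7) (lam := y) (by omega) (tor_of_odd h7 (by norm_num) y.ne_zero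
    (by rw [orderOf_units]; exact hy7) (by rw [hrk]; decide) (by
    intro i hi hi2
    rw [hcF]
    rw [hrk] at hi2
    have hi3 : i = 1 ∨ i = 2 := by omega
    rcases hi3 with rfl | rfl <;> norm_num)) (by rw [orderOf_units]; exact hy7)
  have hN : ∀ a : K, a ≠ 0 → a ^ 7 = 1 := by
    intro a ha
    have := congrArg Units.val (hu7 (Units.mk0 a ha))
    rwa [Units.val_pow_eq_pow_val, Units.val_mk0, Units.val_one] at this
  let phE : Kˣ × Kˣ →* E (prodForm (tq F K) (tq F K)) :=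
    (ph F).codRestrict _ fun x => odd_mem hG (ph_mem_O F x) (by decide : Odd 7) (hp7 x)
  have phE_coe : ∀ x, ((phE x : E (prodForm (tq F K) (tq F K))) : ((K × K) × (K × K)) ≃ₗ[F] _) = ph F x := fun _ => rfl
  have phE_inj : Function.Injective phE := fun a c hac => ph_inj F (congrArg Subtype.val hac)
  -- the Frobenius automorphism
  obtain ⟨σ, hσ⟩ : ∃ σ : K ≃ₐ[F] K, orderOf σ = 3 :=
    ⟨FiniteField.frobeniusAlgEquivOfAlgebraic F K, by
      rw [FiniteField.orderOf_frobeniusAlgEquivOfAlgebraic, hrk]⟩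
  have hσ3 : fr F σ ^ 3 = 1 := by
    rw [fr_pow, ← hσ, pow_orderOf_eq_one, fr_one]
  have hσ1 : fr F σ ≠ 1 := fr_ne F (by
    rintro rfl
    rw [orderOf_one] at hσ
    omega)
  let k₁ : E (prodForm (tq F K) (tq F K)) := ⟨fr F σ, odd_mem hG (fr_mem_O F σ) (by decide : Odd 3) hσ3⟩
  let k₂ : E (prodForm (tq F K) (tq F K)) := ⟨kk F, odd_mem hG (kk_mem_O F) (by decide : Odd 3) (kk_pow F)⟩
  have o1 : orderOf k₁ = 3 := by
    have : Fact (Nat.Prime 3) := ⟨Nat.prime_three⟩
    exact orderOf_eq_prime (Subtype.ext hσ3) fun h => hσ1 (congrArg Subtype.val h)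
  have o2 : orderOf k₂ = 3 := by
    have : Fact (Nat.Prime 3) := ⟨Nat.prime_three⟩
    exact orderOf_eq_prime (Subtype.ext (kk_pow F)) fun h => kk_ne F (congrArg Subtype.val h)
  have o7 : ∀ x : Kˣ × Kˣ, x ≠ 1 → orderOf (phE x) = 7 := by
    intro x hx
    have : Fact (Nat.Prime 7) := ⟨h7⟩
    refine orderOf_eq_prime (Subtype.ext (hp7 x)) fun h => hx (phE_inj ?_)
    rw [h, map_one]
  have ny1 : ((y, 1) : Kˣ × Kˣ) ≠ 1 := fun h => hy1 (congrArg Prod.fst h)
  have ny2 : ((y, y) : Kˣ × Kˣ) ≠ 1 := fun h => hy1 (congrArg Prod.fst h)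
  refine ⟨phE.range, phE (y, 1), k₁, phE (y, y), k₂, ?_, ?_, ?_, o7 _ ny1, o7 _ ny2, ?_, ?_, ?_, ?_, ?_, ?_, ?_⟩
  · rw [← Nat.card_congr (MonoidHom.ofInjective phE_inj).toEquiv, Nat.card_prod, hKx]
    norm_num
  · rw [Nat.card_congr ψ.toEquiv, ← Nat.card_congr i.toEquiv]
    have h1 := S0293.result hF2 6 (by norm_num)
    rw [coe_plusForm]
    have h2 : Nat.gcd 4 (2 ^ 6 - 1) = 1 := by norm_num
    rw [h2, one_mul] at h1
    rw [h1]
    simp only [Finset.prod_range_succ, Finset.prod_range_zero]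
    norm_num
  · intro u hu hk
    have hu7' : u ^ 7 = 1 := by
      apply Subtype.ext
      exact cen_torus (by norm_num) hT hN (E_le_O u.2) (congrArg Subtype.val (hu _ ⟨(y, 1), rfl⟩)).symm
        (congrArg Subtype.val (hu _ ⟨(1, y), rfl⟩)).symm
    obtain ⟨k, hk⟩ := hk
    have h1 := orderOf_dvd_of_pow_eq_one hu7'
    rcases (Nat.dvd_prime h7).1 h1 with h2 | h2
    · exact orderOf_eq_one_iff.1 h2
    · exfalso
      rw [h2] at hk
      have h3 : 7 ∣ 2 := h7.dvd_of_dvd_pow (show 7 ∣ 2 ^ k by rw [← hk])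
      omega
  · exact Subtype.ext (fr_comm F σ y).eq
  · exact Subtype.ext (kk_comm F y).eq
  · intro h
    rw [h, orderOf_one] at o1
    omega
  · intro h
    rw [h, orderOf_one] at o2
    omega
  · rw [o1]; norm_num
  · rw [o2]; norm_num
  · intro n hn
    obtain ⟨c, hc⟩ := isConj_iff.1 hn
    rw [← map_pow] at hc
    have h1 : c * phE (y, y) = phE ((y, 1) ^ n) * c := by rw [← hc]; group
    exact not_conj_model (fun v hv => hT.fix_eq (by norm_num) v hv) (congrArg Subtype.val h1)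

end Cfsg.Agent.H5.OZ
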